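import Mathlib
import Cfsg.Agent.ClassicalGeometry.TwoFamilies
import Cfsg.Agent.Prune
set_option linter.all false
prune_inst 0x7f00000000000000000000000000000000000000000000000000000000000000000000000000000000000000000000000000000000000000000000000000000000000000000000000000000000000000003fffffffffffffffffffffffffffbeffbdffffffff
open scoped Cfsg.Agent.FastGrp

-- part: H105/Dp/Lin
section
/-!
# Elements of prime order in isometry groups: dimensions of the moved spaces (helper105, DP8 of S5734)

`V` is a finite dimensional space over a finite field `F` with a nondegenerate bilinear form, symmetric or alternating,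
alternating in characteristic 2. If `g` is an isometry with `g ^ u = 1`, `u` an odd prime different from the
characteristic, then `lcm 2 (orderOf |F| mod u)` divides `dim (g - 1) V`.
-/

set_option autoImplicit false

namespace Cfsg.Agent.H105.Dp

open Module

/-- a nondegenerate reflexive form, alternating in characteristic two -/
structure Frm (F V : Type*) [Field F] [AddCommGroup V] [Module F V] where
  B : V →ₗ[F] V →ₗ[F] F
  nd : ∀ x, (∀ y, B x y = 0) → x = 0
  refl : ∀ x y, B x y = 0 → B y x = 0
  alt : (2 : F) = 0 → ∀ x, B x x = 0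

variable {F V : Type*} [Field F] [AddCommGroup V] [Module F V]

/-- isometries -/
def Iso (b : Frm F V) (g : V →ₗ[F] V) : Prop := ∀ x y, b.B (g x) (g y) = b.B x y

theorem Iso.one (b : Frm F V) : Iso b 1 := fun _ _ => rfl

theorem Iso.mul {b : Frm F V} {g h : V →ₗ[F] V} (hg : Iso b g) (hh : Iso b h) : Iso b (g * h) :=
  fun x y => (hg (h x) (h y)).trans (hh x y)

theorem Iso.pow {b : Frm F V} {g : V →ₗ[F] V} (hg : Iso b g) (n : ℕ) : Iso b (g ^ n) := by
  induction n with
  | zero => exact Iso.one b
  | succ n ih => rw [pow_succ]; exact ih.mul hg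

section

variable [FiniteDimensional F V]

/-- the adjoint of `g` is `g ^ (u - 1)` -/
theorem det_adj (b : Frm F V) {g g' : V →ₗ[F] V} (h : ∀ x y, b.B (g x) y = b.B x (g' y)) (c : F) :
    LinearMap.det (g - c • 1) = LinearMap.det (g' - c • 1) := by
  have hinj : Function.Injective (b.B.flip : V →ₗ[F] Dual F V) := by
    rw [← LinearMap.ker_eq_bot, LinearMap.ker_eq_bot']
    intro y hy
    refine b.nd y fun x => b.refl x y ?_
    exact LinearMap.congr_fun hy x
  have hfr : finrank F V = finrank F (Dual F V) := Subspace.dual_finrank_eq.symm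
  let e : V ≃ₗ[F] Dual F V := LinearEquiv.ofInjectiveOfFinrankEq b.B.flip hinj hfr
  have he : ∀ y x, e y x = b.B x y := fun y x => rfl
  have h1 : (g - c • 1).dualMap = e ∘ₗ (g' - c • 1) ∘ₗ e.symm := by
    apply LinearMap.ext
    intro φ
    obtain ⟨y, rfl⟩ := e.surjective φ
    apply LinearMap.ext
    intro x
    show e y ((g - c • 1) x) = e ((g' - c • 1) (e.symm (e y))) x
    rw [e.symm_apply_apply, he, he, LinearMap.sub_apply, LinearMap.sub_apply, map_sub, map_sub,
      LinearMap.sub_apply, h]
    congr 1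
    show b.B (c • x) y = b.B x (c • y)
    rw [map_smul, map_smul, LinearMap.smul_apply]
  rw [← LinearMap.det_dualMap, h1]
  exact LinearMap.det_conj _ e

theorem even_finrank (b : Frm F V) {g : V →ₗ[F] V} (hg : Iso b g) {u : ℕ} (hu : Odd u) (hgu : g ^ u = 1)
    (hfix : ∀ v, g v = v → v = 0) : Even (finrank F V) := by
  by_cases h2 : (2 : F) = 0
  · obtain ⟨m, hm⟩ := Cfsg.Agent.ClassicalGeometry.TwoFamilies.exists_finrank_eq_ker_add b.B (b.alt h2)
    have hker : LinearMap.ker b.B = ⊥ := by
      rw [eq_bot_iff]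
      intro x hx
      rw [LinearMap.mem_ker] at hx
      exact b.nd x fun y => LinearMap.congr_fun hx y
    rw [hker, finrank_bot, zero_add] at hm
    exact ⟨m, hm⟩
  · by_contra hodd
    rw [Nat.not_even_iff_odd] at hodd
    have hu1 : 1 ≤ u := hu.pos
    have hadj : ∀ x y, b.B (g x) y = b.B x ((g ^ (u - 1)) y) := by
      intro x y
      have h1 : g ((g ^ (u - 1)) y) = y := by
        have : g * g ^ (u - 1) = 1 := by rw [← pow_succ', Nat.sub_add_cancel hu1, hgu]
        exact LinearMap.congr_fun this y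
      nth_rewrite 1 [← h1]
      exact hg _ _
    have hd0 : LinearMap.det g = LinearMap.det g ^ (u - 1) := by
      have := det_adj b hadj 0
      rwa [zero_smul, sub_zero, sub_zero, map_pow] at this
    have hdu : LinearMap.det g ^ u = 1 := by rw [← map_pow, hgu, map_one]
    have hd2 : LinearMap.det g ^ 2 = 1 := by
      rw [pow_two]
      nth_rewrite 2 [hd0]
      rw [← pow_succ', Nat.sub_add_cancel hu1, hdu]
    have hd1 : LinearMap.det g = 1 := by
      obtain ⟨k, hk⟩ := hu
      rw [hk, pow_succ, pow_mul, hd2, one_pow, one_mul] at hdu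
      exact hdu
    have h3 : LinearMap.det (g - 1) = LinearMap.det (g ^ (u - 1) - 1) := by
      have := det_adj b hadj 1
      rwa [one_smul] at this
    have h4 : g ^ (u - 1) - 1 = (-1 : F) • (g ^ (u - 1) * (g - 1)) := by
      rw [mul_sub, mul_one, ← pow_succ, Nat.sub_add_cancel hu1, hgu, neg_one_smul, neg_sub]
    rw [h4, LinearMap.det_smul, map_mul, map_pow, hd1, one_pow, one_mul, Odd.neg_one_pow hodd, neg_one_mul] at h3
    have h5 : LinearMap.det (g - 1) = 0 := by
      have h6 : (2 : F) * LinearMap.det (g - 1) = 0 := by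
        rw [two_mul]
        nth_rewrite 1 [h3]
        exact neg_add_cancel _
      exact (mul_eq_zero.1 h6).resolve_left h2
    have h7 : LinearMap.ker (g - 1) ≠ ⊥ := by
      intro h8
      have := LinearMap.isUnit_iff_ker_eq_bot (g - 1) |>.2 h8
      exact (this.map (LinearMap.det : (V →ₗ[F] V) →* F)).ne_zero h5
    apply h7
    rw [eq_bot_iff]
    intro v hv
    rw [LinearMap.mem_ker, LinearMap.sub_apply, sub_eq_zero] at hv
    exact hfix v hv

end

end Cfsg.Agent.H105.Dp
end

-- part: H105/Dp/Lin2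
section
/-!
# Elements of prime order in isometry groups: dimensions of the moved spaces, part 2 (helper105, DP8 of S5734)
-/

set_option autoImplicit false

namespace Cfsg.Agent.H105.Dp

open Module

variable {F V : Type*} [Field F] [AddCommGroup V] [Module F V] [FiniteDimensional F V]

/-- a fixed point free linear map of prime order -/
theorem orderOf_dvd_finrank [Finite F] {u : ℕ} (hu : u.Prime) (huF : (u : F) ≠ 0) {g : V →ₗ[F] V}
    (hgu : g ^ u = 1) (hfix : ∀ v, g v = v → v = 0) :
    orderOf ((Nat.card F : ℕ) : ZMod u) ∣ finrank F V := by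
  classical
  have hfu := Fact.mk hu
  have hfinV : Finite V := Module.finite_of_finite F
  -- the unit
  have hu1 : 1 ≤ u := hu.pos
  let a : (V →ₗ[F] V)ˣ := ⟨g, g ^ (u - 1), by rw [← pow_succ', Nat.sub_add_cancel hu1, hgu],
    by rw [← pow_succ, Nat.sub_add_cancel hu1, hgu]⟩
  have hau : a ^ u = 1 := Units.ext hgu
  have hp : IsPGroup u (Subgroup.zpowers a) := by
    intro ⟨x, hx⟩
    obtain ⟨k, rfl⟩ := hx
    refine ⟨1, Subtype.ext ?_⟩
    show (a ^ k) ^ u ^ 1 = 1
    rw [pow_one, ← zpow_natCast, ← zpow_mul, mul_comm, zpow_mul, zpow_natCast, hau, one_zpow]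
  let _ : MulAction (Subgroup.zpowers a) V :=
    { smul := fun x v => ((x : (V →ₗ[F] V)ˣ) : V →ₗ[F] V) v
      one_smul := fun v => rfl
      mul_smul := fun x y v => rfl }
  have hfinE : Finite (V →ₗ[F] V) := Finite.of_injective (fun e : V →ₗ[F] V => (e : V → V)) DFunLike.coe_injective
  have h1 := hp.card_modEq_card_fixedPoints V
  have h2 : MulAction.fixedPoints (Subgroup.zpowers a) V = {0} := by
    ext v
    rw [MulAction.mem_fixedPoints, Set.mem_singleton_iff]
    constructor
    · intro h
      exact hfix v (h ⟨a, Subgroup.mem_zpowers a⟩)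
    · rintro rfl x
      exact map_zero ((x : (V →ₗ[F] V)ˣ) : V →ₗ[F] V)
  have h2' : Nat.card (MulAction.fixedPoints (Subgroup.zpowers a) V) = 1 := by
    rw [h2]; exact Nat.card_unique
  rw [h2'] at h1
  rw [orderOf_dvd_iff_pow_eq_one]
  rw [← Nat.cast_pow, ← Module.natCard_eq_pow_finrank (K := F) (V := V)]
  have h3 := (ZMod.natCast_eq_natCast_iff _ _ _).2 h1
  rw [h3, Nat.cast_one]

/-- the restriction of a form to an orthogonal summand -/
def Frm.restrict (b : Frm F V) (W W' : Submodule F V) (hc : IsCompl W W') (ho : ∀ x ∈ W, ∀ y ∈ W', b.B x y = 0) :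
    Frm F W where
  B := (b.B.domRestrict₁₂ W W)
  nd x hx := by
    apply Subtype.ext
    refine b.nd x fun y => ?_
    obtain ⟨w, hw, w', hw', rfl⟩ := Submodule.mem_sup.1 (show y ∈ W ⊔ W' by rw [hc.sup_eq_top]; trivial)
    rw [map_add, ho x x.2 w' hw', add_zero]
    exact hx ⟨w, hw⟩
  refl x y h := b.refl x y h
  alt h x := b.alt h x

omit [FiniteDimensional F V] in
theorem ort {b : Frm F V} {g : V →ₗ[F] V} (hg : Iso b g) {x y : V} (hx : g x = x) (hy : y ∈ LinearMap.range (g - 1)) :
    b.B x y = 0 := by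
  obtain ⟨w, rfl⟩ := hy
  rw [LinearMap.sub_apply, map_sub, Module.End.one_apply]
  nth_rewrite 1 [← hx]
  rw [hg, sub_self]

theorem isCompl_ker_range {g : V →ₗ[F] V} {m : ℕ} (hm : (m : F) ≠ 0) (hg : g ^ m = 1) :
    IsCompl (LinearMap.ker (g - 1)) (LinearMap.range (g - 1)) := by
  have hdim := LinearMap.finrank_range_add_finrank_ker (g - 1)
  rw [Submodule.isCompl_iff_disjoint _ _ (by omega), Submodule.disjoint_def]
  rintro v hv ⟨w, hw⟩
  rw [LinearMap.mem_ker, LinearMap.sub_apply, sub_eq_zero] at hv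
  have hv : g v = v := hv
  have hw' : g w = w + v := by
    rw [← hw]
    show g w = w + (g w - w)
    abel
  have h1 : ∀ k : ℕ, (g ^ k) w = w + k • v := by
    intro k
    induction k with
    | zero => simp
    | succ k ih =>
      rw [pow_succ']
      show g ((g ^ k) w) = _
      rw [ih, map_add, map_nsmul, hw', hv, succ_nsmul]
      abel
  have h2 := h1 m
  rw [hg] at h2
  have h3 : m • v = 0 := by
    have : w = w + m • v := h2
    exact left_eq_add.1 this
  rw [← Nat.cast_smul_eq_nsmul F] at h3
  exact (smul_eq_zero.1 h3).resolve_left hm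

/-- the number `E` -/
noncomputable def ee (F : Type*) [Field F] (u : ℕ) : ℕ := Nat.lcm 2 (orderOf ((Nat.card F : ℕ) : ZMod u))

theorem ee_dvd_finrank [Finite F] (b : Frm F V) {u : ℕ} (hu : u.Prime) (hu2 : u ≠ 2) (huF : (u : F) ≠ 0)
    {g : V →ₗ[F] V} (hg : Iso b g) (hgu : g ^ u = 1) (hfix : ∀ v, g v = v → v = 0) : ee F u ∣ finrank F V :=
  Nat.lcm_dvd (even_finrank b hg (hu.odd_of_ne_two hu2) hgu hfix).two_dvd (orderOf_dvd_finrank hu huF hgu hfix)

theorem ee_dvd_range [Finite F] (b : Frm F V) {u : ℕ} (hu : u.Prime) (hu2 : u ≠ 2) (huF : (u : F) ≠ 0)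
    {g : V →ₗ[F] V} (hg : Iso b g) (hgu : g ^ u = 1) : ee F u ∣ finrank F (LinearMap.range (g - 1)) := by
  have hc := isCompl_ker_range huF hgu
  have hW : ∀ v ∈ LinearMap.range (g - 1), g v ∈ LinearMap.range (g - 1) := by
    rintro v ⟨w, rfl⟩
    refine ⟨g w, ?_⟩
    show g (g w) - g w = g (g w - w)
    rw [map_sub]
  refine ee_dvd_finrank (b.restrict _ _ hc.symm fun x hx y hy => ?_) hu hu2 huF (g := g.restrict hW) ?_ ?_ ?_
  · rw [LinearMap.mem_ker, LinearMap.sub_apply, sub_eq_zero] at hy
    exact b.refl _ _ (ort hg hy hx)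
  · intro x y
    exact hg x y
  · rw [Module.End.pow_restrict]
    apply LinearMap.ext
    intro v
    apply Subtype.ext
    show (g ^ u) (v : V) = v
    rw [hgu]
    rfl
  · intro v hv
    have h1 : g v = v := congrArg Subtype.val hv
    have h2 : (v : V) ∈ LinearMap.ker (g - 1) := by
      rw [LinearMap.mem_ker, LinearMap.sub_apply, sub_eq_zero]
      exact h1
    exact Subtype.ext (Submodule.disjoint_def.1 hc.disjoint _ h2 v.2)

end Cfsg.Agent.H105.Dp
end
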